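import Mathlib

/-!
# S3530: the algebra of the characteristic 3 chief factors (helper881)
-/

set_option autoImplicit false

namespace Cfsg.Agent.H389.RSq

theorem alg_three {R : Type*} [CommRing R] (h3 : (3 : R) = 0) {x y : R} (hx : x ^ 8 = 0) (hy : y ^ 8 = 0)
    (h1 : (x + y + x * y) ^ 8 = 0) (h2 : (x - y) ^ 8 = 0) : x ^ 6 * y ^ 6 = 0 := by
  linear_combination (2 * y ^ 4 + y ^ 5) * h2 + (2 * y ^ 4 + 2 * y ^ 5 + y ^ 6) * h1 +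
    ((-1) * y ^ 14 + (-10) * y ^ 13 + (-46) * y ^ 12 + (-128) * y ^ 11 + (-238) * y ^ 10 + (-308) * y ^ 9 +
      (-280) * y ^ 8 + (-176) * y ^ 7 + (-73) * y ^ 6 + (-19) * y ^ 5 + (-4) * y ^ 4) * hx +
    ((-8) * x ^ 7 * y ^ 6 + (-72) * x ^ 7 * y ^ 5 + (-296) * x ^ 7 * y ^ 4 + (-728) * x ^ 7 * y ^ 3 +
      (-1176) * x ^ 7 * y ^ 2 + (-1288) * x ^ 7 * y + (-952) * x ^ 7 + (-28) * x ^ 6 * y ^ 6 +
      (-224) * x ^ 6 * y ^ 5 + (-812) * x ^ 6 * y ^ 4 + (-1736) * x ^ 6 * y ^ 3 + (-2380) * x ^ 6 * y ^ 2 +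
      (-2128) * x ^ 6 * y + (-1204) * x ^ 6 + (-56) * x ^ 5 * y ^ 6 + (-392) * x ^ 5 * y ^ 5 +
      (-1232) * x ^ 5 * y ^ 4 + (-2240) * x ^ 5 * y ^ 3 + (-2520) * x ^ 5 * y ^ 2 + (-1736) * x ^ 5 * y +
      (-616) * x ^ 5 + (-70) * x ^ 4 * y ^ 6 + (-420) * x ^ 4 * y ^ 5 + (-1120) * x ^ 4 * y ^ 4 +
      (-1680) * x ^ 4 * y ^ 3 + (-1470) * x ^ 4 * y ^ 2 + (-770) * x ^ 4 * y + (-280) * x ^ 4 +
      (-56) * x ^ 3 * y ^ 6 + (-280) * x ^ 3 * y ^ 5 + (-616) * x ^ 3 * y ^ 4 + (-728) * x ^ 3 * y ^ 3 +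
      (-392) * x ^ 3 * y ^ 2 + (-28) * x ^ 2 * y ^ 6 + (-112) * x ^ 2 * y ^ 5 + (-196) * x ^ 2 * y ^ 4 +
      (-196) * x ^ 2 * y ^ 3 + (-112) * x ^ 2 * y ^ 2 + (-8) * x * y ^ 6 + (-24) * x * y ^ 5 +
      (-24) * x * y ^ 4 + (-1) * y ^ 6 + (-3) * y ^ 5 + (-4) * y ^ 4) * hy +
    ((-152) * x ^ 7 * y ^ 7 + (-40) * x ^ 7 * y ^ 6 + (-140) * x ^ 6 * y ^ 7 + (-37) * x ^ 6 * y ^ 6) * h3

namespace H881

/-- `Σ_{i<9} t^i = (t - 1)^8` in characteristic 3 -/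
theorem geom_nine {R : Type*} [CommRing R] (h3 : (3 : R) = 0) (t : R) :
    (t - 1) ^ 8 = 1 + t + t ^ 2 + t ^ 3 + t ^ 4 + t ^ 5 + t ^ 6 + t ^ 7 + t ^ 8 := by
  linear_combination (-3 * t + 9 * t ^ 2 - 19 * t ^ 3 + 23 * t ^ 4 - 19 * t ^ 5 + 9 * t ^ 6 - 3 * t ^ 7) * h3

theorem geom_sum_eq {R : Type*} [Ring R] (t : R) :
    ∑ i ∈ Finset.range 9, t ^ i = 1 + t + t ^ 2 + t ^ 3 + t ^ 4 + t ^ 5 + t ^ 6 + t ^ 7 + t ^ 8 := by
  simp [Finset.sum_range_succ]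

/-- the commutative case -/
theorem key_comm {R : Type*} [CommRing R] (h3 : (3 : R) = 0) {a b c : R} (hbc : b * c = 1)
    (ha : ∑ i ∈ Finset.range 9, a ^ i = 0) (hb : ∑ i ∈ Finset.range 9, b ^ i = 0)
    (hab : ∑ i ∈ Finset.range 9, (a * b) ^ i = 0) (hac : ∑ i ∈ Finset.range 9, (a * c) ^ i = 0) :
    (a - 1) ^ 6 * (b - 1) ^ 6 = 0 := by
  rw [geom_sum_eq, ← geom_nine h3] at ha hb hab hac
  refine alg_three h3 ha hb ?_ ?_
  · rw [← hab]; ring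
  · have h1 : a - 1 - (b - 1) = b * (a * c - 1) := by linear_combination (-a) * hbc
    rw [h1, mul_pow, hac, mul_zero]

/-- the same in a noncommutative ring -/
theorem key_ring {E : Type*} [Ring E] (h3 : (3 : E) = 0) {a b c : E} (hab' : a * b = b * a) (hbc : b * c = 1)
    (hcb : c * b = 1)
    (ha : ∑ i ∈ Finset.range 9, a ^ i = 0) (hb : ∑ i ∈ Finset.range 9, b ^ i = 0)
    (hab : ∑ i ∈ Finset.range 9, (a * b) ^ i = 0) (hac : ∑ i ∈ Finset.range 9, (a * c) ^ i = 0) :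
    (a - 1) ^ 6 * (b - 1) ^ 6 = 0 := by
  have hac' : a * c = c * a := by
    calc a * c = c * b * (a * c) := by rw [hcb, one_mul]
      _ = c * (a * b) * c := by rw [hab']; noncomm_ring
      _ = c * a * (b * c) := by noncomm_ring
      _ = c * a := by rw [hbc, mul_one]
  have hcomm : ∀ u ∈ ({a, b, c} : Set E), ∀ v ∈ ({a, b, c} : Set E), u * v = v * u := by
    intro u hu v hv
    simp only [Set.mem_insert_iff, Set.mem_singleton_iff] at hu hv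
    rcases hu with rfl | rfl | rfl <;> rcases hv with rfl | rfl | rfl
    exacts [rfl, hab', hac', hab'.symm, rfl, hbc.trans hcb.symm, hac'.symm, hcb.trans hbc.symm, rfl]
  letI : CommRing (Algebra.adjoin ℤ ({a, b, c} : Set E)) := Algebra.adjoinCommRingOfComm ℤ hcomm
  have ma : a ∈ Algebra.adjoin ℤ ({a, b, c} : Set E) := Algebra.subset_adjoin (by simp)
  have mb : b ∈ Algebra.adjoin ℤ ({a, b, c} : Set E) := Algebra.subset_adjoin (by simp)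
  have mc : c ∈ Algebra.adjoin ℤ ({a, b, c} : Set E) := Algebra.subset_adjoin (by simp)
  have key := key_comm (R := Algebra.adjoin ℤ ({a, b, c} : Set E)) (a := ⟨a, ma⟩) (b := ⟨b, mb⟩) (c := ⟨c, mc⟩)
    (Subtype.ext h3) (Subtype.ext hbc) ?_ ?_ ?_ ?_
  · exact congrArg Subtype.val key
  · apply Subtype.ext
    rw [geom_sum_eq] at ha ⊢
    exact ha
  · apply Subtype.ext
    rw [geom_sum_eq] at hb ⊢
    exact hb
  · apply Subtype.ext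
    rw [geom_sum_eq] at hab ⊢
    exact hab
  · apply Subtype.ext
    rw [geom_sum_eq] at hac ⊢
    exact hac

end H881

end Cfsg.Agent.H389.RSq
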